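import Cfsg.Agent.H199.PslGraphField
import Cfsg.Agent.H199.PslField
import Cfsg.Agent.S2697

/-!
# S5719, `|A|` odd, PSL: involutory automorphisms of `PSL_n(F)`, `n` odd (helper243)

`cls` : `n ≥ 3` odd, `orderOf σ = 2`: `σ` is inner, or a graph, field or graph-field automorphism.
-/

set_option autoImplicit false
set_option linter.unusedSectionVars false

namespace Cfsg.Agent.H243.IFO

open Cfsg Cfsg.Agent.H199.PslAut Cfsg.Agent.H199.PslField Cfsg.Agent.H199.PslGraphField
open Cfsg.Agent.ClassicalGeometry.AutPSL.Root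
open Cfsg.Agent.ClassicalGeometry.AutPSL.Auto
open Cfsg.Agent.ClassicalGeometry.AutPSL.Main
open Matrix

universe u

variable {F : Type u} [Field F] [Fintype F] {n : ℕ}

theorem pow_odd {X : Type*} [Monoid X] {x : X} (h : x ^ 2 = 1) {m : ℕ} (hm : Odd m) : x ^ m = x := by
  obtain ⟨k, rfl⟩ := hm
  rw [pow_succ, pow_mul, h, one_pow, one_mul]

/-- the `n`-th power of an inner-diagonal automorphism is inner -/
theorem exists_inner_pow (g : GL (Fin n) F) : ∃ a, Psi n F g ^ n = MulAut.conj a := by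
  have hdet : Matrix.GeneralLinearGroup.det ((scal n F (Matrix.GeneralLinearGroup.det g))⁻¹ * g ^ n) = 1 := by
    rw [map_mul, map_inv, map_pow, det_scal, inv_mul_cancel]
  obtain ⟨s, hs⟩ : ∃ s : Matrix.SpecialLinearGroup (Fin n) F,
      (s : GL (Fin n) F) = (scal n F (Matrix.GeneralLinearGroup.det g))⁻¹ * g ^ n :=
    ⟨⟨(((scal n F (Matrix.GeneralLinearGroup.det g))⁻¹ * g ^ n : GL (Fin n) F) : Matrix (Fin n) (Fin n) F), by
      rw [← Matrix.GeneralLinearGroup.val_det_apply, hdet, Units.val_one]⟩, Units.ext rfl⟩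
  refine ⟨pr s, ?_⟩
  rw [← Psi_coe, hs, map_mul, map_inv, Psi_scal, inv_one, one_mul, map_pow]

theorem exists_inner (hodd : Odd n) {g : GL (Fin n) F} (h : Psi n F g ^ 2 = 1) : ∃ a, Psi n F g = MulAut.conj a := by
  obtain ⟨a, ha⟩ := exists_inner_pow g
  exact ⟨a, (pow_odd h hodd).symm.trans ha⟩

theorem field_of_conj {τ : F ≃+* F} (hτ : τ ≠ RingEquiv.refl F) {H : Subgroup (MulAut (ProjectiveSpecialLinearGroup (Fin n) F))}
    {σ : MulAut (ProjectiveSpecialLinearGroup (Fin n) F)} (h : IsConjUnder H (phi n F τ) σ) : IsFieldAutClassPSL σ := by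
  obtain ⟨y, -, rfl⟩ := h
  refine ⟨y⁻¹, τ, hτ, (std_iff τ _).2 ?_⟩
  group

theorem graphField_of_conj (hn : 3 ≤ n) {τ : F ≃+* F} (hτ : τ ≠ RingEquiv.refl F)
    {H : Subgroup (MulAut (ProjectiveSpecialLinearGroup (Fin n) F))}
    {σ : MulAut (ProjectiveSpecialLinearGroup (Fin n) F)} (h : IsConjUnder H (gf n τ) σ) : IsGraphFieldAutClassPSL σ := by
  obtain ⟨y, -, rfl⟩ := h
  refine ⟨hn, y⁻¹, phi n F τ, iot n F, τ, hτ, (std_iff τ _).2 rfl, (invTr_iff _).2 rfl, ?_⟩
  rw [gf]
  group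

/-- **The involutory automorphisms of `PSL_n(F)`, `n` odd.** -/
theorem cls (hn : 3 ≤ n) (hodd : Odd n) {σ : MulAut (ProjectiveSpecialLinearGroup (Fin n) F)} (ho : orderOf σ = 2) :
    (∃ a, σ = MulAut.conj a) ∨ IsGraphAutClassPSL σ ∨ IsFieldAutClassPSL σ ∨ IsGraphFieldAutClassPSL σ := by
  have hn2 : 2 ≤ n := by omega
  obtain ⟨f, hp, hF⟩ := FiniteField.card F (ringChar F)
  have : Fact (ringChar F).Prime := ⟨hp⟩
  have h2 : σ ^ 2 = 1 := by rw [← ho, pow_orderOf_eq_one]
  rcases exists_form hn2 σ with ⟨g, τ, rfl⟩ | ⟨-, g, τ, rfl⟩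
  · by_cases hτ : τ = RingEquiv.refl F
    · left
      have h1 : phi n F τ = 1 := by rw [hτ]; exact map_one _
      rw [h1, mul_one] at h2 ⊢
      exact exists_inner hodd h2
    · right; right; left
      have h1 : Psi n F (g * mapGL τ g) * phi n F (τ ^ 2) = phi n F 1 := by
        rw [map_one, ← h2, pow_two, pow_two, map_mul, map_mul]
        calc Psi n F g * Psi n F (mapGL τ g) * (phi n F τ * phi n F τ)
            = Psi n F g * (Psi n F (mapGL τ g) * phi n F τ) * phi n F τ := by group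
          _ = Psi n F g * (phi n F τ * Psi n F g) * phi n F τ := by rw [phi_mul_Psi]
          _ = _ := by group
      have h3 := (Psi_phi_eq hn2 h1).2
      have h4 : orderOf (phi n F τ) = 2 := by
        refine orderOf_eq_prime (by rw [← map_pow, h3, map_one]) ?_
        intro h5
        exact hτ (phi_injective hn2 (by rw [h5]; exact (map_one _).symm))
      exact field_of_conj hτ ((Cfsg.Agent.S2697.result hF f.pos hn2 (by omega) (phi n F τ) (Psi n F g)
        (Or.inl ⟨1, τ, hτ, (std_iff τ _).2 (by group)⟩) Nat.prime_two h4 (Psi_mem g)).1 ho)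
  · by_cases hτ : τ = RingEquiv.refl F
    · right; left
      have h1 : phi n F τ = 1 := by rw [hτ]; exact map_one _
      rw [h1, mul_one]
      exact ⟨hn, Psi n F g, iot n F, (innerDiag_iff _).2 ⟨g, rfl⟩, (invTr_iff _).2 rfl, rfl⟩
    · right; right; right
      rw [mul_assoc] at h2 ho ⊢
      change (Psi n F g * gf n τ) ^ 2 = 1 at h2
      have h1 : Psi n F (g * mapGL τ (itGL g)) * phi n F (τ ^ 2) = phi n F 1 := by
        rw [map_one, ← h2, ← gf_sq, map_mul, pow_two, pow_two]
        calc Psi n F g * Psi n F (mapGL τ (itGL g)) * (gf n τ * gf n τ)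
            = Psi n F g * (Psi n F (mapGL τ (itGL g)) * gf n τ) * gf n τ := by group
          _ = Psi n F g * (gf n τ * Psi n F g) * gf n τ := by rw [gf_mul_Psi]
          _ = _ := by group
      have h3 := (Psi_phi_eq hn2 h1).2
      have h4 : orderOf (gf n τ) = 2 := by
        refine orderOf_eq_prime (by rw [gf_sq, h3, map_one]) ?_
        intro h5
        exact not_graph' hn (g := 1) (σ := τ) (τ := 1) (by rw [map_one, one_mul, map_one]; exact h5)
      exact graphField_of_conj hn hτ ((Cfsg.Agent.S2697.result hF f.pos hn2 (by omega) (gf n τ) (Psi n F g)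
        (Or.inr ⟨hn, 1, phi n F τ, iot n F, τ, hτ, (std_iff τ _).2 rfl, (invTr_iff _).2 rfl, by rw [gf]; group⟩)
        Nat.prime_two h4 (Psi_mem g)).1 ho)

end Cfsg.Agent.H243.IFO
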