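import Cfsg.Agent.H460.IFO.Base
import Cfsg.Agent.H242.StrP.FCLin
import Cfsg.Agent.H277.ClsPsl

/-!
# S5719, `|A|` odd: numbers (helper243)

* `exists_idx` : `σ ∈ Γ` an involution: `f |C_A(σ)| = |C_T(σ)|`, `f ^ 6 < |T : A|`;
* `card_cent` : `|C_G(σ)| = r |C_T(σ)|`, `r ∣ |G : Inn T|`, for `Inn T ≤ G ≤ Aut T`;
* `num_core` : the numerical contradiction.
-/

set_option autoImplicit false
set_option linter.unusedSectionVars false

namespace Cfsg.Agent.H243.IFO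

open Cfsg Subgroup Cfsg.Agent.H209.Fxy

universe u

section general

variable {T : Type u} [Group T] [Finite T]

/-- the fixed subgroup -/
def fixS (σ : MulAut T) : Subgroup T where
  carrier := {t | σ t = t}
  one_mem' := map_one σ
  mul_mem' := by
    intro a b ha hb
    change σ (a * b) = a * b
    rw [map_mul, show σ a = a from ha, show σ b = b from hb]
  inv_mem' := by
    intro a ha
    change σ a⁻¹ = a⁻¹
    rw [map_inv, show σ a = a from ha]

theorem exists_idx {A : Subgroup T} {Γ : Subgroup (MulAut T)} (h : IF A Γ) {σ : MulAut T} (hσ : σ ∈ Γ)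
    (ho : orderOf σ = 2) :
    ∃ f : ℕ, f * Nat.card {a // a ∈ A ∧ σ a = a} = Nat.card {t // σ t = t} ∧ f ^ 6 < A.index := by
  refine ⟨(A.comap (fixS σ).subtype).index, ?_, Cfsg.Agent.H460.IFO.comap_lt h hσ ho (fixS σ).subtype fun k => k.2⟩
  have h1 := (A.comap (fixS σ).subtype).card_mul_index
  have h2 : Nat.card (A.comap (fixS σ).subtype) = Nat.card {a // a ∈ A ∧ σ a = a} :=
    Nat.card_congr
      { toFun := fun x => ⟨x.1.1, x.2, x.1.2⟩
        invFun := fun x => ⟨⟨x.1, x.2.2⟩, x.2.1⟩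
        left_inv := fun _ => rfl
        right_inv := fun _ => rfl }
  rw [h2, mul_comm] at h1
  exact h1

theorem relIndex_dvd {X : Type u} [Group X] {N G C : Subgroup X} [N.Normal] (hC : C ≤ G) :
    N.relIndex C ∣ N.relIndex G := by
  rw [← relIndex_subgroupOf hC]
  exact relIndex_dvd_index_of_normal _ _

theorem card_cent (hZ : center T = ⊥) {G : Subgroup (MulAut T)} (hG : Inn T ≤ G) (σ : MulAut T) :
    ∃ r : ℕ, r ∣ (Inn T).relIndex G ∧
      Nat.card ↥(G ⊓ centralizer {σ}) = r * Nat.card {t // σ t = t} := by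
  have hN : (Inn T).Normal := innNormal _
  refine ⟨(Inn T).relIndex (G ⊓ centralizer {σ}), relIndex_dvd inf_le_left, ?_⟩
  have h1 := ((Inn T).subgroupOf (G ⊓ centralizer {σ})).card_mul_index
  rw [← h1, mul_comm]
  congr 1
  have hinj : Function.Injective (MulAut.conj : T →* MulAut T) := by
    rw [← MonoidHom.ker_eq_bot_iff, Subgroup.eq_bot_iff_forall]
    intro a ha
    rw [← mem_bot, ← hZ, mem_center_iff]
    intro b
    have h2 : MulAut.conj a b = b := by rw [MonoidHom.mem_ker.1 ha]; rfl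
    rw [MulAut.conj_apply, mul_inv_eq_iff_eq_mul] at h2
    exact h2.symm
  have hconj : ∀ t : T, σ * MulAut.conj t * σ⁻¹ = MulAut.conj (σ t) := by
    intro t
    ext x
    simp [MulAut.mul_apply, MulAut.conj_apply]
  have hmem : ∀ t : T, σ t = t → MulAut.conj t ∈ G ⊓ centralizer {σ} := by
    intro t ht
    refine ⟨hG ⟨t, rfl⟩, mem_centralizer_singleton_iff.2 ?_⟩
    have h3 := hconj t
    rw [ht, mul_inv_eq_iff_eq_mul] at h3
    exact h3.symm
  let f : {t // σ t = t} → ((Inn T).subgroupOf (G ⊓ centralizer {σ}) : Subgroup _) := fun t =>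
    ⟨⟨MulAut.conj t.1, hmem t.1 t.2⟩, ⟨t.1, rfl⟩⟩
  symm
  refine Nat.card_congr (Equiv.ofBijective f ⟨?_, ?_⟩)
  · intro a b hab
    have h3 := congrArg (fun z => ((z : ↥(G ⊓ centralizer {σ})) : MulAut T)) (congrArg Subtype.val hab)
    exact Subtype.ext (hinj h3)
  · intro y
    obtain ⟨t, ht⟩ : ∃ t, MulAut.conj t = ((y : ↥(G ⊓ centralizer {σ})) : MulAut T) := y.2
    have hx2 := mem_centralizer_singleton_iff.1 (y : ↥(G ⊓ centralizer {σ})).2.2
    refine ⟨⟨t, ?_⟩, Subtype.ext (Subtype.ext ht)⟩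
    apply hinj
    rw [← hconj t, mul_inv_eq_iff_eq_mul, ht]
    exact hx2.symm

end general

/-! ### Numbers -/

/-- `∏ (x ^ i - 1)`, `1 ≤ i ≤ m + 1` -/
def W (x m : ℕ) : ℕ := ∏ i ∈ Finset.range (m + 1), (x ^ (i + 1) - 1)

theorem W_eq (x m : ℕ) : W x m = (x - 1) * ∏ i ∈ Finset.range m, (x ^ (i + 2) - 1) := by
  unfold W
  rw [Finset.prod_range_succ', mul_comm, zero_add, pow_one]

theorem gauss (m : ℕ) : ∑ i ∈ Finset.range (m + 1), (i + 1) = (m + 2) * (m + 1) / 2 := by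
  have h := Finset.sum_range_id_mul_two (m + 2)
  rw [Finset.sum_range_succ', add_zero, show m + 2 - 1 = m + 1 from rfl] at h
  omega

theorem W_le (x m : ℕ) : W x m ≤ x ^ ((m + 2) * (m + 1) / 2) := by
  unfold W
  rw [← gauss, ← Finset.prod_pow_eq_pow_sum]
  exact Finset.prod_le_prod' fun i _ => Nat.sub_le _ _

theorem le_W {x : ℕ} (hx : 2 ≤ x) (m : ℕ) : x ^ ((m + 2) * (m + 1) / 2) ≤ W x m * x ^ (m + 1) := by
  unfold W
  have h1 : x ^ (m + 1) = ∏ _i ∈ Finset.range (m + 1), x := by rw [Finset.prod_const, Finset.card_range]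
  rw [← gauss, ← Finset.prod_pow_eq_pow_sum, h1, ← Finset.prod_mul_distrib]
  refine Finset.prod_le_prod' fun i _ => ?_
  have h2 : 1 ≤ x ^ i := Nat.one_le_pow _ _ (by omega)
  have h3 : x ^ (i + 1) = x ^ i * x := pow_succ x i
  have h4 : x ^ i * 2 ≤ x ^ i * x := Nat.mul_le_mul_left _ hx
  calc x ^ (i + 1) = x ^ i * x := h3
    _ ≤ (x ^ (i + 1) - 1) * x := Nat.mul_le_mul_right _ (by omega)

/-- **The numbers.** -/
theorem num_core {m q e f I : ℕ} (hm : m = 1 ∧ 3 ≤ q ∨ 3 ≤ m ∧ 2 ≤ q) (he : e ≤ m + 2)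
    (hI : I ≤ (q ^ 2) ^ ((m + 2) * (m + 1) / 2) * W (q ^ 2) m)
    (hf : q ^ ((m + 2) * (m + 1) / 2) * W q m ≤ e * f * (m + 2)) (hlt : f ^ 6 < I) : False := by
  have hq : 2 ≤ q := by omega
  set N := (m + 2) * (m + 1) / 2 with hN
  have hN2 : 2 * N = (m + 2) * (m + 1) := by
    have h1 : Even ((m + 1) * (m + 1 + 1)) := Nat.even_mul_succ_self (m + 1)
    have h2 : 2 ∣ (m + 2) * (m + 1) := by
      rw [mul_comm]
      exact h1.two_dvd
    omega
  have h1 : I ≤ q ^ (4 * N) := by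
    calc I ≤ (q ^ 2) ^ N * W (q ^ 2) m := hI
      _ ≤ (q ^ 2) ^ N * (q ^ 2) ^ N := Nat.mul_le_mul_left _ (W_le _ _)
      _ = q ^ (4 * N) := by rw [← pow_mul, ← pow_add]; congr 1; ring
  have h2 : q ^ (2 * N) ≤ (m + 2) ^ 2 * f * q ^ (m + 1) := by
    calc q ^ (2 * N) = q ^ N * q ^ N := by rw [← pow_add]; congr 1; ring
      _ ≤ q ^ N * (W q m * q ^ (m + 1)) := Nat.mul_le_mul_left _ (le_W hq m)
      _ = q ^ N * W q m * q ^ (m + 1) := by ring
      _ ≤ e * f * (m + 2) * q ^ (m + 1) := Nat.mul_le_mul_right _ hf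
      _ ≤ (m + 2) * f * (m + 2) * q ^ (m + 1) := by gcongr
      _ = (m + 2) ^ 2 * f * q ^ (m + 1) := by ring
  have h3 : q ^ (12 * N) ≤ (m + 2) ^ 12 * f ^ 6 * q ^ (6 * (m + 1)) := by
    calc q ^ (12 * N) = (q ^ (2 * N)) ^ 6 := by rw [← pow_mul]; congr 1; ring
      _ ≤ ((m + 2) ^ 2 * f * q ^ (m + 1)) ^ 6 := Nat.pow_le_pow_left h2 6
      _ = (m + 2) ^ 12 * f ^ 6 * q ^ (6 * (m + 1)) := by ring
  have hpos : 0 < (m + 2) ^ 12 * q ^ (6 * (m + 1)) := by positivity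
  have h4 : q ^ (12 * N) < (m + 2) ^ 12 * q ^ (4 * N) * q ^ (6 * (m + 1)) := by
    calc q ^ (12 * N) ≤ (m + 2) ^ 12 * f ^ 6 * q ^ (6 * (m + 1)) := h3
      _ = f ^ 6 * ((m + 2) ^ 12 * q ^ (6 * (m + 1))) := by ring
      _ < q ^ (4 * N) * ((m + 2) ^ 12 * q ^ (6 * (m + 1))) :=
          Nat.mul_lt_mul_of_pos_right (hlt.trans_le h1) hpos
      _ = _ := by ring
  have h5 : (m + 2) ^ 12 ≤ q ^ ((m + 1) * (4 * m + 2)) := by
    rcases hm with ⟨rfl, h3q⟩ | ⟨h3m, -⟩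
    · calc (1 + 2) ^ 12 ≤ q ^ 12 := Nat.pow_le_pow_left h3q 12
        _ = q ^ ((1 + 1) * (4 * 1 + 2)) := rfl
    · have h6 : m + 2 ≤ q ^ (m + 1) := by
        calc m + 2 ≤ 2 ^ (m + 1) := Nat.lt_two_pow_self
          _ ≤ q ^ (m + 1) := Nat.pow_le_pow_left hq _
      calc (m + 2) ^ 12 ≤ (q ^ (m + 1)) ^ 12 := Nat.pow_le_pow_left h6 12
        _ = q ^ ((m + 1) * 12) := by rw [← pow_mul]
        _ ≤ q ^ ((m + 1) * (4 * m + 2)) := Nat.pow_le_pow_right (by omega) (Nat.mul_le_mul_left _ (by omega))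
  have h6 : (m + 2) ^ 12 * q ^ (4 * N) * q ^ (6 * (m + 1)) ≤ q ^ (12 * N) := by
    calc (m + 2) ^ 12 * q ^ (4 * N) * q ^ (6 * (m + 1))
        ≤ q ^ ((m + 1) * (4 * m + 2)) * q ^ (4 * N) * q ^ (6 * (m + 1)) := by gcongr
      _ = q ^ (12 * N) := by
        rw [← pow_add, ← pow_add]
        congr 1
        have h7 : 8 * N = 4 * ((m + 2) * (m + 1)) := by omega
        nlinarith
  omega

end Cfsg.Agent.H243.IFO
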