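import Cfsg.Agent.H243.IFO.Num
import Cfsg.Agent.S2698
import Cfsg.Agent.S2704
import Cfsg.Agent.S0277
import Cfsg.Agent.ClassicalGeometry.GUBasic

/-!
# S5719, `|A|` odd, `PSL_n(F)`, `n` odd: field and graph-field involutions (helper243)

* `num_field`, `num_gf` : the numerical contradictions in the Singer case.
-/

set_option autoImplicit false
set_option linter.unusedSectionVars false

namespace Cfsg.Agent.H243.IFO

open Cfsg Subgroup Cfsg.Agent.H209.Fxy Matrix

universe u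

variable {F : Type u} [Field F] [Fintype F]

/-- the index of `A` is small -/
theorem index_le {m : ℕ} {A : Subgroup (ProjectiveSpecialLinearGroup (Fin (m + 2)) F)}
    (hlow : Fintype.card F ^ (m + 2) - 1 ≤
      (Fintype.card F - 1) * (m + 2).gcd (Fintype.card F - 1) * Nat.card A) :
    A.index ≤ Fintype.card F ^ ((m + 2) * (m + 1) / 2) * W (Fintype.card F) m := by
  have hq : 2 ≤ Fintype.card F := Fintype.one_lt_card
  have h1 := Cfsg.Agent.H277.ClsPsl.card_psl (F := F) rfl (n := m + 2) (by omega)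
  rw [show m + 2 - 1 = m + 1 from rfl, Finset.prod_range_succ] at h1
  have h2 := A.card_mul_index
  set q := Fintype.card F with hqd
  have hpos : 0 < q ^ (m + 2) - 1 := by
    have : q ^ 1 ≤ q ^ (m + 2) := Nat.pow_le_pow_right (by omega) (by omega)
    rw [pow_one] at this
    omega
  apply Nat.le_of_mul_le_mul_right _ hpos
  calc A.index * (q ^ (m + 2) - 1) ≤ A.index * ((q - 1) * (m + 2).gcd (q - 1) * Nat.card A) :=
        Nat.mul_le_mul_left _ hlow
    _ = (q - 1) * ((m + 2).gcd (q - 1) * (Nat.card A * A.index)) := by ring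
    _ = (q - 1) * (q ^ ((m + 2) * (m + 1) / 2) *
          ((∏ i ∈ Finset.range m, (q ^ (i + 2) - 1)) * (q ^ (m + 2) - 1))) := by rw [h2, h1]
    _ = q ^ ((m + 2) * (m + 1) / 2) * W q m * (q ^ (m + 2) - 1) := by rw [W_eq]; ring

theorem center_psl {n : ℕ} (hn : 3 ≤ n) : center (ProjectiveSpecialLinearGroup (Fin n) F) = ⊥ := by
  have hs : IsSimpleGroup (ProjectiveSpecialLinearGroup (Fin n) F) :=
    Cfsg.Agent.H242.StrP.FC.simple_psl (by omega) (by omega)
  rcases hs.eq_bot_or_eq_top_of_normal (center (ProjectiveSpecialLinearGroup (Fin n) F)) inferInstance with h | h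
  · exact h
  · exfalso
    apply Cfsg.Agent.H242.StrP.FC.not_comm_psl hs
    exact ⟨⟨fun a b => (mem_center_iff.1 (by rw [h]; exact mem_top b) a)⟩⟩

/-- the centralizers in `Inndiag` and in `T` -/
theorem card_cent_psl {n : ℕ} (hn : 3 ≤ n) (σ : MulAut (ProjectiveSpecialLinearGroup (Fin n) F)) :
    ∃ r : ℕ, r ∣ n.gcd (Fintype.card F - 1) ∧
      Nat.card ↥(inndiagPSL n F ⊓ centralizer {σ}) = r * Nat.card {t // σ t = t} := by
  have hfin : Finite (ProjectiveSpecialLinearGroup (Fin n) F) := by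
    unfold ProjectiveSpecialLinearGroup
    infer_instance
  obtain ⟨r, h1, h2⟩ := card_cent (center_psl hn) (G := inndiagPSL n F) Cfsg.Agent.H242.StrP.FC.inn_le_psl σ
  rw [Cfsg.Agent.H242.StrP.FC.relIndex_psl (by omega) (center_psl hn)] at h1
  exact ⟨r, h1, h2⟩

theorem odd_fix {T : Type u} [Group T] [Finite T] {A : Subgroup T} (hA : Odd (Nat.card A)) (σ : MulAut T) :
    Odd (Nat.card {a // a ∈ A ∧ σ a = a}) := by
  have h1 : Nat.card {a // a ∈ A ∧ σ a = a} = Nat.card (A ⊓ fixS σ : Subgroup T) := rfl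
  rw [h1]
  exact hA.of_dvd_nat (card_dvd_of_le inf_le_left)

/-- **Field automorphisms.** -/
theorem num_field {n : ℕ} (hn : 3 ≤ n) (hodd : Odd n) {A : Subgroup (ProjectiveSpecialLinearGroup (Fin n) F)}
    {Γ : Subgroup (MulAut (ProjectiveSpecialLinearGroup (Fin n) F))} (h : IF A Γ) (hA : Odd (Nat.card A))
    {σ : MulAut (ProjectiveSpecialLinearGroup (Fin n) F)} (hσ : σ ∈ Γ) (ho : orderOf σ = 2)
    (hcl : IsFieldAutClassPSL σ) {q : ℕ} (hq : Fintype.card F = q ^ 2)
    (hlow : Fintype.card F ^ n - 1 ≤ (Fintype.card F - 1) * n.gcd (Fintype.card F - 1) * Nat.card A)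
    (hup : Nat.card {a // a ∈ A ∧ σ a = a} * (q - 1) ≤ n * (q ^ n - 1)) : False := by
  obtain ⟨f, hp, hF⟩ := FiniteField.card F (ringChar F)
  have : Fact (ringChar F).Prime := ⟨hp⟩
  set p := ringChar F with hpd
  have hfin : Finite (ProjectiveSpecialLinearGroup (Fin n) F) := by
    unfold ProjectiveSpecialLinearGroup
    infer_instance
  -- the subfield
  have h2f : 2 ∣ (f : ℕ) := by
    have h1 : ∃ (g : ℕ), q = p ^ g := by
      obtain ⟨g, -, hg⟩ := (Nat.dvd_prime_pow hp).1 (show q ∣ p ^ (f : ℕ) from by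
        rw [← hF, hq]
        exact dvd_pow_self q (by norm_num))
      exact ⟨g, hg⟩
    obtain ⟨g, hg⟩ := h1
    rw [hg, ← pow_mul, hF] at hq
    exact ⟨g, by rw [mul_comm]; exact Nat.pow_right_injective hp.two_le hq⟩
  have hf2 : (f : ℕ) / 2 ≠ 0 := by
    have := f.pos
    omega
  have hq' : q = p ^ ((f : ℕ) / 2) := by
    have h1 : q ^ 2 = (p ^ ((f : ℕ) / 2)) ^ 2 := by
      rw [← hq, hF, ← pow_mul, Nat.div_mul_cancel h2f]
    exact Nat.pow_left_injective (by norm_num : 2 ≠ 0) h1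
  have hfin0 : Fintype (GaloisField p ((f : ℕ) / 2)) := Fintype.ofFinite _
  have hF₀ : Fintype.card (GaloisField p ((f : ℕ) / 2)) = p ^ ((f : ℕ) / 2) := by
    rw [← Nat.card_eq_fintype_card, GaloisField.card p _ hf2]
  obtain ⟨-, ⟨e⟩, -⟩ := Cfsg.Agent.S2698.result hF f.pos (n := n) (by omega) (by omega) σ hcl Nat.prime_two ho
    (GaloisField p ((f : ℕ) / 2)) hF₀
  rw [← hq'] at hF₀
  have hq2 : 2 ≤ q := by rw [← hF₀]; exact Fintype.one_lt_card
  obtain ⟨r, hr, hr'⟩ := card_cent_psl hn σ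
  rw [Nat.card_congr e.toEquiv, Cfsg.Agent.H277.ClsPsl.card_pgl hF₀ (by omega),
    Cfsg.Agent.H277.ClsPsl.card_psl hF₀ (by omega)] at hr'
  obtain ⟨k, hk, hk6⟩ := exists_idx h hσ ho
  have hc := odd_fix hA σ
  rw [← hk] at hr'
  set c := Nat.card {a // a ∈ A ∧ σ a = a} with hcd
  obtain ⟨m, rfl⟩ : ∃ m, n = m + 2 := ⟨n - 2, by omega⟩
  rw [show m + 2 - 1 = m + 1 from rfl, Finset.prod_range_succ] at hr'
  have hI := index_le hlow
  rw [hq] at hI
  have hpos : 0 < q ^ (m + 2) - 1 := by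
    have : q ^ 1 ≤ q ^ (m + 2) := Nat.pow_le_pow_right (by omega) (by omega)
    rw [pow_one] at this
    omega
  -- the lower bound
  have hlo : q ^ ((m + 2) * (m + 1) / 2) * W q m ≤ r * k * (m + 2) := by
    apply Nat.le_of_mul_le_mul_right _ hpos
    calc q ^ ((m + 2) * (m + 1) / 2) * W q m * (q ^ (m + 2) - 1)
        = (q - 1) * (q ^ ((m + 2) * (m + 1) / 2) *
          ((∏ i ∈ Finset.range m, (q ^ (i + 2) - 1)) * (q ^ (m + 2) - 1))) := by rw [W_eq]; ring
      _ = r * k * (c * (q - 1)) := by rw [hr']; ring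
      _ ≤ r * k * ((m + 2) * (q ^ (m + 2) - 1)) := Nat.mul_le_mul_left _ hup
      _ = r * k * (m + 2) * (q ^ (m + 2) - 1) := by ring
  have hrn : r ≤ m + 2 := (Nat.le_of_dvd (Nat.gcd_pos_of_pos_left _ (by omega)) hr).trans
    (Nat.le_of_dvd (by omega) (Nat.gcd_dvd_left _ _))
  by_cases hsp : m = 1 ∧ q = 2
  · obtain ⟨rfl, rfl⟩ := hsp
    have hr3 : r ∣ 3 := hr.trans (Nat.gcd_dvd_left _ _)
    have hW1 : W 2 1 = 3 := by decide
    have hW2 : W (2 ^ 2) 1 = 45 := by decide
    rw [hW1] at hlo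
    rw [hW2] at hI
    norm_num at hlo hI
    have hk3 : k < 4 := by
      by_contra hcon
      push Not at hcon
      have := Nat.pow_le_pow_left hcon 6
      omega
    have hr1 : r = 1 ∨ r = 3 := (Nat.dvd_prime (by norm_num)).1 hr3
    have hk' : k = 3 := by
      rcases hr1 with rfl | rfl <;> omega
    subst hk'
    norm_num [Finset.prod_range_succ] at hr'
    obtain ⟨c', hc'⟩ := hc
    rcases hr1 with rfl | rfl <;> omega
  · refine num_core (m := m) (q := q) ?_ hrn hI hlo hk6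
    obtain ⟨j, hj⟩ := hodd
    by_cases hm1 : m = 1
    · left
      refine ⟨hm1, ?_⟩
      by_contra hcon
      exact hsp ⟨hm1, by omega⟩
    · right
      exact ⟨by omega, hq2⟩

/-! ### Graph-field automorphisms -/

theorem card_scalars_le {n q : ℕ} (hn : 1 ≤ n) (hF : Fintype.card F = q ^ 2) :
    Nat.card ((Geo.scalars (Fin n) F).subgroupOf (GU n F q)) ≤ q + 1 := by
  rw [← Cfsg.Agent.ClassicalGeometry.GUBasic.card_rootsOfUnity_eq hF]
  have key : ∀ A : (Geo.scalars (Fin n) F).subgroupOf (GU n F q), ∃ u : rootsOfUnity (q + 1) F,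
      (((A : GU n F q) : GL (Fin n) F) : Matrix (Fin n) (Fin n) F) = diagonal fun _ => ((u : Fˣ) : F) := by
    intro A
    have hA : (A : GU n F q) ∈ center (GU n F q) := by
      obtain ⟨c, hc⟩ := (Geo.mem_scalars_iff _).1 (mem_subgroupOf.1 A.2)
      rw [mem_center_iff]
      intro B
      apply Subtype.ext
      apply Units.ext
      rw [Subgroup.coe_mul, Subgroup.coe_mul, Units.val_mul, Units.val_mul, hc]
      simp
    obtain ⟨c, hc, hA'⟩ := (Cfsg.Agent.ClassicalGeometry.GUBasic.mem_center_GU_iff hF hn _).1 hA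
    have hc0 : c ≠ 0 := by
      rintro rfl
      rw [zero_pow (by omega)] at hc
      exact zero_ne_one hc
    refine ⟨⟨Units.mk0 c hc0, ?_⟩, ?_⟩
    · rw [mem_rootsOfUnity]
      apply Units.ext
      rw [Units.val_pow_eq_pow_val, Units.val_mk0, Units.val_one]
      exact hc
    · rw [hA']
      exact Cfsg.Agent.ClassicalGeometry.GUBasic.coe_guDiag q _ _
  choose g hg using key
  refine Nat.card_le_card_of_injective g fun A B hAB => ?_
  apply Subtype.ext
  apply Subtype.ext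
  apply Units.ext
  rw [hg A, hg B, hAB]

theorem card_pgu_ge {n q : ℕ} (hn : 1 ≤ n) (hF : Fintype.card F = q ^ 2) :
    Nat.card (GU n F q) ≤ Nat.card (PGU n F q) * (q + 1) := by
  rw [card_eq_card_quotient_mul_card_subgroup ((Geo.scalars (Fin n) F).subgroupOf (GU n F q))]
  exact Nat.mul_le_mul_left _ (card_scalars_le hn hF)

theorem W_le_V (x m : ℕ) :
    W x m ≤ ∏ i ∈ Finset.range (m + 1), (if Even i then x ^ (i + 1) + 1 else x ^ (i + 1) - 1) := by
  unfold W
  refine Finset.prod_le_prod' fun i _ => ?_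
  split_ifs
  · omega
  · exact le_rfl

/-- **Graph-field automorphisms.** -/
theorem num_gf {n : ℕ} (hn : 3 ≤ n) (hodd : Odd n) {A : Subgroup (ProjectiveSpecialLinearGroup (Fin n) F)}
    {Γ : Subgroup (MulAut (ProjectiveSpecialLinearGroup (Fin n) F))} (h : IF A Γ)
    {σ : MulAut (ProjectiveSpecialLinearGroup (Fin n) F)} (hσ : σ ∈ Γ) (ho : orderOf σ = 2)
    (hcl : IsGraphFieldAutClassPSL σ) {q : ℕ} (hq : Fintype.card F = q ^ 2)
    (hlow : Fintype.card F ^ n - 1 ≤ (Fintype.card F - 1) * n.gcd (Fintype.card F - 1) * Nat.card A)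
    (hup : Nat.card {a // a ∈ A ∧ σ a = a} * (q + 1) ≤ n * (q ^ n + 1)) : False := by
  obtain ⟨f, hp, hF⟩ := FiniteField.card F (ringChar F)
  have : Fact (ringChar F).Prime := ⟨hp⟩
  set p := ringChar F with hpd
  have hfin : Finite (ProjectiveSpecialLinearGroup (Fin n) F) := by
    unfold ProjectiveSpecialLinearGroup
    infer_instance
  obtain ⟨h2f, -, ⟨e⟩, -⟩ := Cfsg.Agent.S2704.result hF f.pos hn σ hcl ho
  have hq' : q = p ^ ((f : ℕ) / 2) := by
    have h1 : q ^ 2 = (p ^ ((f : ℕ) / 2)) ^ 2 := by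
      rw [← hq, hF, ← pow_mul, Nat.div_mul_cancel h2f.two_dvd]
    exact Nat.pow_left_injective (by norm_num : 2 ≠ 0) h1
  rw [← hq'] at e
  have hq2 : 2 ≤ q := Cfsg.Agent.ClassicalGeometry.GUBasic.two_le hq
  obtain ⟨r, hr, hr'⟩ := card_cent_psl hn σ
  rw [Nat.card_congr e.toEquiv] at hr'
  obtain ⟨k, hk, hk6⟩ := exists_idx h hσ ho
  have hG := card_pgu_ge (n := n) (q := q) (F := F) (by omega) hq
  rw [S0277.result hq n, hr', ← hk] at hG
  set c := Nat.card {a // a ∈ A ∧ σ a = a} with hcd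
  obtain ⟨m, rfl⟩ : ∃ m, n = m + 2 := ⟨n - 2, by omega⟩
  have hme : Even (m + 1) := by
    obtain ⟨j, hj⟩ := hodd
    exact ⟨j, by omega⟩
  rw [show m + 2 - 1 = m + 1 from rfl, Finset.prod_range_succ _ (m + 1), if_pos hme] at hG
  have hI := index_le hlow
  rw [hq] at hI
  set V := ∏ i ∈ Finset.range (m + 1), (if Even i then q ^ (i + 1) + 1 else q ^ (i + 1) - 1) with hV
  have hlo : q ^ ((m + 2) * (m + 1) / 2) * V ≤ r * k * (m + 2) := by
    apply Nat.le_of_mul_le_mul_right _ (show 0 < q ^ (m + 2) + 1 by omega)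
    calc q ^ ((m + 2) * (m + 1) / 2) * V * (q ^ (m + 2) + 1)
        = q ^ ((m + 2) * (m + 1) / 2) * (V * (q ^ (m + 1 + 1) + 1)) := by ring
      _ ≤ r * (k * c) * (q + 1) := hG
      _ = r * k * (c * (q + 1)) := by ring
      _ ≤ r * k * ((m + 2) * (q ^ (m + 2) + 1)) := Nat.mul_le_mul_left _ hup
      _ = r * k * (m + 2) * (q ^ (m + 2) + 1) := by ring
  have hrn : r ≤ m + 2 := (Nat.le_of_dvd (Nat.gcd_pos_of_pos_left _ (by omega)) hr).trans
    (Nat.le_of_dvd (by omega) (Nat.gcd_dvd_left _ _))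
  by_cases hsp : m = 1 ∧ q = 2
  · obtain ⟨rfl, rfl⟩ := hsp
    have hV9 : V = 9 := by rw [hV]; decide
    have hW2 : W (2 ^ 2) 1 = 45 := by decide
    rw [hV9] at hlo
    rw [hW2] at hI
    norm_num at hlo hI
    have hk3 : k < 4 := by
      by_contra hcon
      push Not at hcon
      have := Nat.pow_le_pow_left hcon 6
      omega
    have h1 : r * k ≤ 3 * 3 := Nat.mul_le_mul hrn (by omega)
    omega
  · refine num_core (m := m) (q := q) ?_ hrn hI ((Nat.mul_le_mul_left _ (W_le_V q m)).trans hlo) hk6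
    obtain ⟨j, hj⟩ := hodd
    by_cases hm1 : m = 1
    · left
      refine ⟨hm1, ?_⟩
      by_contra hcon
      exact hsp ⟨hm1, by omega⟩
    · right
      exact ⟨by omega, hq2⟩

end Cfsg.Agent.H243.IFO
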